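import Cfsg.Agent.DS.Defs
import Cfsg.Agent.S0000
import Cfsg.Agent.H936.DSAll

/-!
# The hypothesis `Big` (helper98)
-/

set_option autoImplicit false

namespace Cfsg.Agent.DS.ONS

theorem big : Big :=
  ⟨fun _ _ _ _ => Cfsg.Agent.S0000.result,
    fun _ _ _ _ hT => Cfsg.Agent.H936.ds_known hT Cfsg.Agent.S0000.result⟩

end Cfsg.Agent.DS.ONS
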